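import Cfsg.Agent.SB.Spor.TitsOf
import Cfsg.Agent.TAB.Sm2.Tits

/-!
# S5765, the row of the Tits group (helper63)
-/

set_option autoImplicit false

namespace Cfsg.Agent.SB.Spor

open Cfsg

/-- **The row of the Tits group.** -/
theorem row_Tits (K : Type*) [Group K] [IsSimpleGroup K] (h : Lie.IsoTits K) : Row K := by
  have := TAB.Sm2.Tits.finite_of h
  obtain ⟨T, -, hT, -⟩ := TAB.Sm2.Tits.tab_of h
  exact Tits.row_of_core h hT

theorem boxTits : Box fun K _ => Lie.IsoTits K := fun K _ _ _ _ h => row_Tits K h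

end Cfsg.Agent.SB.Spor
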